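import Cfsg.Agent.H39.SmithTyrer.Defs
import Cfsg.Agent.H38.ClassCoeff
import Cfsg.Agent.H38.UThreeThree.Degrees
import Cfsg.Agent.H43.CharKer
import Cfsg.Agent.H57.VChar

/-!
# Elementary facts used in the endgame for abelian Sylow subgroups of inertial index two
-/

set_option autoImplicit false

namespace Cfsg.Agent.H39.SmithTyrer

open scoped ComplexConjugate

universe u

variable {G : Type u} [Group G]

section Basic

variable [Finite G] {p : ℕ} [Fact p.Prime]

theorem pp_inv (g : G) : pp p g⁻¹ = (pp p g)⁻¹ := by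
  obtain ⟨y, h1, h2, ⟨k, hk⟩, h4⟩ := pp_spec (p := p) g
  refine pp_eq ⟨y⁻¹, ?_, h2.inv_inv, ⟨k, by rw [orderOf_inv, hk]⟩, by rwa [orderOf_inv]⟩
  rw [← mul_inv_rev, ← h2.eq, h1]

theorem pp_of_sq (hp : p ≠ 2) {g : G} (hg : g * g = 1) : pp p g = 1 := by
  rw [pp_eq_one_iff]
  intro h
  have h2 : orderOf g ∣ 2 := orderOf_dvd_of_pow_eq_one (by rw [pow_two, hg])
  exact hp ((Nat.prime_dvd_prime_iff_eq Fact.out Nat.prime_two).1 (h.trans h2))

end Basic

variable [Finite G] {p : ℕ}

theorem Setup.inSec_iff (D : Setup G p) {S : Subgroup G} (hS : S ≤ (D.P : Subgroup G)) (g : G) :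
    Cover.InSec p S g ↔ (D.rep g : G) ∈ S := by
  refine ⟨?_, fun h => ⟨(D.exists_conj_pp g).choose, h⟩⟩
  rintro ⟨h, hh⟩
  rcases D.rep_of_conj ⟨h * pp p g * h⁻¹, hS hh⟩ rfl with e | e <;> rw [e]
  · exact hh
  · exact inv_mem hh

theorem Setup.exists_involution (D : Setup G p) : ∃ u : G, u * u = 1 ∧ u ≠ 1 := by
  haveI : Fact p.Prime := ⟨D.hp⟩
  haveI : Nontrivial ↥(D.P : Subgroup G) := by
    by_contra h
    rw [not_nontrivial_iff_subsingleton] at h
    exact D.ncyc inferInstance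
  obtain ⟨⟨x, hx⟩, hx1⟩ := exists_ne (1 : ↥(D.P : Subgroup G))
  have h2 : 2 ∣ orderOf D.t := by
    by_contra h
    have hc : Commute (D.t ^ 2) x := by
      have e := D.inv x hx
      have e' : D.t * x⁻¹ * D.t⁻¹ = x := by
        rw [← inv_inj, show (D.t * x⁻¹ * D.t⁻¹)⁻¹ = D.t * x * D.t⁻¹ by group, e]
      show D.t ^ 2 * x = x * D.t ^ 2
      calc D.t ^ 2 * x = D.t * (D.t * x * D.t⁻¹) * D.t := by rw [pow_two]; group
        _ = D.t * x⁻¹ * D.t⁻¹ * D.t ^ 2 := by rw [e, pow_two]; group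
        _ = x * D.t ^ 2 := by rw [e']
    have hcop : (orderOf D.t).Coprime 2 := Nat.Coprime.symm ((Nat.prime_two.coprime_iff_not_dvd).2 h)
    obtain ⟨m, hm⟩ := exists_pow_eq_self_of_coprime hcop.symm
    have h' : Commute D.t x := hm ▸ hc.pow_left m
    have e := D.inv x hx
    rw [h'.eq, mul_inv_cancel_right, eq_inv_iff_mul_eq_one, ← pow_two] at e
    have hod : orderOf x ∣ 2 := orderOf_dvd_of_pow_eq_one e
    have hpd : orderOf (⟨x, hx⟩ : ↥(D.P : Subgroup G)) = orderOf x := Subgroup.orderOf_mk x hx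
    obtain ⟨k, hk⟩ := (IsPGroup.iff_orderOf.1 D.P.2) ⟨x, hx⟩
    rcases (Nat.dvd_prime Nat.prime_two).1 hod with h0 | h0
    · exact hx1 (Subtype.ext (orderOf_eq_one_iff.1 h0))
    · rw [hpd, h0] at hk
      have : 2 ∣ p ^ k := hk ▸ dvd_rfl
      exact D.odd ((Nat.prime_dvd_prime_iff_eq Nat.prime_two D.hp).1
        (Nat.prime_two.dvd_of_dvd_pow this)).symm
  refine ⟨D.t ^ (orderOf D.t / 2), ?_, ?_⟩
  · rw [← pow_add, ← two_mul, Nat.mul_div_cancel' h2, pow_orderOf_eq_one]
  · intro h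
    have := orderOf_dvd_of_pow_eq_one h
    have h0 := orderOf_pos D.t
    exact absurd (Nat.le_of_dvd (by omega) this) (by omega)

/-- A nontrivial linear character of a nontrivial finite commutative group. -/
theorem exists_hom_ne_one {A : Type*} [CommGroup A] [Finite A] [Nontrivial A] :
    ∃ φ : A →* ℂˣ, φ ≠ 1 := by
  obtain ⟨a, ha⟩ := exists_ne (1 : A)
  haveI : NeZero (Monoid.exponent A) := ⟨Monoid.exponent_ne_zero_of_finite⟩
  obtain ⟨φ, hφ⟩ := CommGroup.exists_apply_ne_one_of_hasEnoughRootsOfUnity A ℂ ha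
  exact ⟨φ, fun h => hφ (by rw [h]; rfl)⟩

/-- Summing all linear characters of a finite commutative group at a point. -/
theorem sum_hom_apply {A : Type*} [CommGroup A] [Finite A] [Fintype (A →* ℂˣ)] [DecidableEq A]
    (a : A) : ∑ φ : A →* ℂˣ, (φ a : ℂ) = if a = 1 then (Nat.card A : ℂ) else 0 := by
  haveI : NeZero (Monoid.exponent A) := ⟨Monoid.exponent_ne_zero_of_finite⟩
  split_ifs with h
  · subst h
    simp only [map_one, Units.val_one, Finset.sum_const, Finset.card_univ, nsmul_eq_mul, mul_one]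
    rw [← Nat.card_eq_fintype_card, CommGroup.card_monoidHom_of_hasEnoughRootsOfUnity A ℂ]
  · obtain ⟨ψ, hψ⟩ := CommGroup.exists_apply_ne_one_of_hasEnoughRootsOfUnity A ℂ h
    refine eq_zero_of_mul_eq_self_left (b := (ψ a : ℂ)) (by simpa using hψ) ?_
    rw [Finset.mul_sum]
    exact Fintype.sum_equiv (Equiv.mulLeft ψ) _ _ fun φ => by simp

/-- The conjugate of a value of a linear character is the value at the inverse. -/
theorem conj_hom {A : Type*} [Group A] [Finite A] (φ : A →* ℂˣ) (a : A) :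
    conj (φ a : ℂ) = (φ a⁻¹ : ℂ) := (H26.irr_inv ⟨_, H26.isIrrCharacter_hom φ⟩ a).symm

/-- Nontrivial irreducible characters of a simple group: the kernel contains no involution. -/
theorem apply_ne_degree {H : Type u} [Group H] [Finite H] (hs : IsSimpleGroup H)
    (χ : Cfsg.IrrCharacter H) (hχ : χ ≠ H26.oneIrr H) {g : H} (hg : g ≠ 1) : χ.1 g ≠ χ.1 1 := by
  haveI := Fintype.ofFinite H
  intro h
  rcases hs.eq_bot_or_eq_top_of_normal (H43.charKer χ) inferInstance with e | e
  · exact hg ((Subgroup.mem_bot).1 (e ▸ (show g ∈ H43.charKer χ from h)))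
  · have h0 := H26.classInner_irr χ (H26.oneIrr H)
    rw [if_neg hχ] at h0
    have hc : χ.1 = χ.1 1 • (H26.oneIrr H).1 := funext fun x => by
      rw [Pi.smul_apply, smul_eq_mul, H26.oneIrr_val, mul_one]
      exact (show x ∈ H43.charKer χ from e ▸ Subgroup.mem_top x)
    rw [hc, H26.classInner_smul_left, H26.classInner_irr, if_pos rfl, mul_one] at h0
    exact H26.irr_one_ne_zero χ h0

/-- A nontrivial irreducible character of a nonabelian simple group is not linear. -/
theorem degree_ne_one {H : Type u} [Group H] [Finite H] (hs : IsSimpleGroup H)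
    (hna : ¬ IsMulCommutative H) (χ : Cfsg.IrrCharacter H) (hχ : χ ≠ H26.oneIrr H) :
    χ.1 1 ≠ 1 := by
  intro h
  have hc : commutator H = ⊤ := by
    refine (hs.eq_bot_or_eq_top_of_normal _ inferInstance).resolve_left fun e => hna ?_
    exact (commutator_eq_bot_iff H).1 e
  refine hχ (H38.UTT.eq_oneIrr_of_degree_one hc χ ?_)
  have := H44.cast_charDegree χ
  rw [h] at this
  exact_mod_cast this

end Cfsg.Agent.H39.SmithTyrer
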