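import Cfsg.Agent.H21.SmithTyrer.Decomp
import Cfsg.Agent.H39.SmithTyrer.Tools
import Cfsg.Agent.H26.PrincipalRestrict
import Cfsg.Agent.H42.MaxIdeal
import Cfsg.Agent.S0907
import Cfsg.Agent.S0942

/-!
# The common constituent lies in the principal block
-/

set_option autoImplicit false

namespace Cfsg.Agent.H39.SmithTyrer

open scoped ComplexConjugate

universe u

variable {G : Type u} [Group G] [Fintype G] {p : ℕ}

/-- A `p`-regular element centralising `x ∈ P` lies in the `p'`-core of its centraliser. -/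
theorem Setup.regular_mem_core (D : Setup G p) {x y : G} (hx : x ∈ (D.P : Subgroup G)) (h1 : x ≠ 1)
    (hc : Commute x y) (hy : ¬ p ∣ orderOf y) : y ∈ Cfsg.centralizerPPrimeCore p x := by
  haveI : Fact p.Prime := ⟨D.hp⟩
  set C := Subgroup.centralizer ({x} : Set G)
  obtain ⟨Q, N, hN, hNQ⟩ := D.cent x hx h1
  have hyC : y ∈ C := Subgroup.mem_centralizer_singleton_iff.2 hc.eq.symm
  haveI := hN
  have hcop : (Nat.card N).Coprime p := by
    rw [← hNQ.index_eq_card]
    exact (D.hp.coprime_iff_not_dvd.2 Q.not_dvd_index).symm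
  have hyN : (⟨y, hyC⟩ : C) ∈ N := by
    rw [← QuotientGroup.eq_one_iff, ← orderOf_eq_one_iff]
    have d1 : orderOf ((⟨y, hyC⟩ : C) : C ⧸ N) ∣ orderOf y :=
      (orderOf_map_dvd (QuotientGroup.mk' N) (⟨y, hyC⟩ : C)).trans
        (dvd_of_eq (Subgroup.orderOf_mk y hyC))
    have d2 : orderOf ((⟨y, hyC⟩ : C) : C ⧸ N) ∣ Nat.card ↥(Q : Subgroup C) := by
      rw [← hNQ.symm.index_eq_card]
      exact orderOf_dvd_natCard _
    obtain ⟨k, hk⟩ := IsPGroup.iff_card.1 Q.isPGroup'
    exact Nat.eq_one_of_dvd_coprimes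
      (Nat.Coprime.pow_left k (D.hp.coprime_iff_not_dvd.2 hy)) (hk ▸ d2) d1
  exact Subgroup.mem_map.2 ⟨⟨y, hyC⟩,
    (le_sSup (show N.Normal ∧ (Nat.card N).Coprime p from ⟨hN, hcop⟩) : N ≤ _) hyN, rfl⟩

/-- The common constituent of the `F ν` depends only on the `p`-part of a `p`-singular element. -/
theorem Y_sections (D : Setup G p) (Y : Cfsg.IrrCharacter G) (δ : ℂ) (hδ : δ * δ = 1)
    (hY : Y ≠ H26.oneIrr G)
    (hν : ∀ ν : ↥(D.P : Subgroup G) →* ℂˣ, ν ≠ 1 → ∃ (X : Cfsg.IrrCharacter G) (e : ℂ),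
      e * e = 1 ∧ X ≠ H26.oneIrr G ∧ X ≠ Y ∧ ∀ g, D.F ν g = 1 + δ * Y.1 g - e * X.1 g) :
    ∀ g : G, pp p g ≠ 1 → Y.1 g = Y.1 (D.rep g : G) := by
  classical
  haveI : Fact p.Prime := ⟨D.hp⟩
  haveI : Nontrivial ↥(D.P : Subgroup G) := by
    by_contra h
    rw [not_nontrivial_iff_subsingleton] at h
    exact D.ncyc inferInstance
  letI : CommGroup ↥(D.P : Subgroup G) :=
    { (inferInstance : Group ↥(D.P : Subgroup G)) with
      mul_comm := fun a b => Subtype.ext (D.comm a a.2 b b.2) }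
  obtain ⟨ν, hν1⟩ := exists_hom_ne_one (A := ↥(D.P : Subgroup G))
  obtain ⟨X, e, he, hX1, hXY, hF⟩ := hν ν hν1
  obtain ⟨M, hM⟩ := H42.exists_isPModular D.hp
  haveI := hM.2.1
  set B := Cfsg.principalBlock M G
  have hB : Cfsg.IsPBlock M B := H26.isPBlock_principalBlock G
  -- the principal block projection of `F ν` vanishes at `1`
  have hzero : ∑ χ ∈ B.toFinset, Cfsg.classInner (D.F ν) χ.1 * χ.1 1 = 0 := by
    simp only [Cfsg.classInner, mul_assoc, ← Finset.mul_sum, Finset.sum_mul]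
    rw [Finset.sum_comm]
    refine mul_eq_zero_of_right _ (Finset.sum_eq_zero fun y _ => ?_)
    rw [← Finset.mul_sum]
    by_cases hy : pp p y = 1
    · rw [Setup.F, Setup.ext, if_pos hy, zero_mul]
    · refine mul_eq_zero_of_right _ ?_
      have h := S0907.result p M hM B hB 1 y
        (by rw [orderOf_one]; exact D.hp.not_dvd_one) (not_not.1 (mt pp_eq_one_iff.2 hy))
      rw [finsum_mem_eq_toFinset_sum] at h
      rw [← h]
      exact Finset.sum_congr rfl fun χ _ => mul_comm _ _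
  have hF' : D.F ν = (H26.oneIrr G).1 + δ • Y.1 - e • X.1 := funext fun g => by
    simp only [Pi.sub_apply, Pi.add_apply, Pi.smul_apply, smul_eq_mul, H26.oneIrr_val, hF g]
  have hY0 : Y.1 1 ≠ 0 := H26.irr_one_ne_zero Y
  have hδ0 : δ ≠ 0 := fun h => by rw [h, zero_mul] at hδ; exact zero_ne_one hδ
  have hYB : Y ∈ B := by
    by_contra hYB
    rw [hF'] at hzero
    simp only [H26.classInner_sub_left, H26.classInner_add_left, H26.classInner_smul_left,
      H26.classInner_irr, sub_mul, add_mul, mul_ite, mul_one, mul_zero, ite_mul, one_mul,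
      zero_mul, Finset.sum_sub_distrib, Finset.sum_add_distrib, Finset.sum_ite_eq,
      Set.mem_toFinset] at hzero
    rw [if_pos (H26.oneIrr_mem_principalBlock (M := M) G : H26.oneIrr G ∈ B), if_neg hYB,
      H26.oneIrr_val] at hzero
    by_cases hXB : X ∈ B
    · rw [if_pos hXB] at hzero
      have h1 := hF 1
      rw [Setup.F, Setup.ext, if_pos (pp_eq_one_iff.2 (by rw [orderOf_one]; exact D.hp.not_dvd_one))]
        at h1
      exact mul_ne_zero hδ0 hY0 (by linear_combination -h1 - hzero)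
    · rw [if_neg hXB] at hzero
      simp at hzero
  intro g hg
  set h := (D.exists_conj_pp g).choose
  have hx : (D.rep g : G) = h * pp p g * h⁻¹ := rfl
  obtain ⟨y, hy1, hy2, hy3, hy4⟩ := pp_spec (p := p) g
  have hx1 : (D.rep g : G) ≠ 1 := fun e1 => hg ((D.rep_eq_one_iff g).1 (Subtype.ext e1))
  have hmem := D.regular_mem_core (D.rep g).2 hx1 (y := h * y * h⁻¹)
    (by rw [hx, ← MulAut.conj_apply, ← MulAut.conj_apply]; exact hy2.map (MulAut.conj h))
    (by rwa [← MulAut.conj_apply, MulEquiv.orderOf_eq])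
  have hord : ∃ k : ℕ, orderOf (D.rep g : G) = p ^ k := by
    rw [hx, ← MulAut.conj_apply, MulEquiv.orderOf_eq]
    exact hy3
  have key := S0942.result p M hM (D.rep g : G) hord (h * y * h⁻¹) hmem Y hYB
  rw [← key, hx, show h * pp p g * h⁻¹ * (h * y * h⁻¹) = h * g * h⁻¹ by
    rw [conj_mul, hy1], H26.irr_conj]

end Cfsg.Agent.H39.SmithTyrer
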