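import Cfsg.Prelude.Def_Characters
import Cfsg.Prelude.Def_Transfer
import Cfsg.Agent.H40.PPart
import Mathlib

/-!
# Groups with an abelian noncyclic Sylow subgroup of inertial index two: setting

`Setup G p` is the simple group to be excluded.  `pp p g` is the `p`-part, `rep` a conjugate of the
`p`-part in the Sylow subgroup, `F ν` the class function `2 - ν - ν⁻¹` read on `p`-parts.
-/

set_option autoImplicit false

namespace Cfsg.Agent.H39.SmithTyrer

universe u

variable {G : Type u} [Group G]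

/-- The `p`-part of an element. -/
noncomputable def pp (p : ℕ) (g : G) : G :=
  open scoped Classical in if h : ∃ x, Cfsg.IsPPart p g x then h.choose else 1

/-- The simple group to be excluded. -/
structure Setup (G : Type u) [Group G] [Finite G] (p : ℕ) where
  hp : p.Prime
  odd : p ≠ 2
  P : Sylow p G
  comm : ∀ a ∈ (P : Subgroup G), ∀ b ∈ (P : Subgroup G), a * b = b * a
  ncyc : ¬ IsCyclic (P : Subgroup G)
  t : G
  inv : ∀ x ∈ (P : Subgroup G), t * x * t⁻¹ = x⁻¹
  fus : ∀ x ∈ (P : Subgroup G), ∀ g : G, g * x * g⁻¹ ∈ (P : Subgroup G) →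
    g * x * g⁻¹ = x ∨ g * x * g⁻¹ = x⁻¹
  cent : ∀ x ∈ (P : Subgroup G), x ≠ 1 →
    Cfsg.HasNormalPComplement p ↥(Subgroup.centralizer ({x} : Set G))
  simple : IsSimpleGroup G
  nonab : ¬ IsMulCommutative G

section Basic

variable [Finite G] {p : ℕ} [Fact p.Prime]

theorem pp_spec (g : G) : Cfsg.IsPPart p g (pp p g) := by
  classical
  rw [pp, dif_pos (H40.exists_isPPart p g)]
  exact (H40.exists_isPPart p g).choose_spec

theorem pp_eq {g x : G} (h : Cfsg.IsPPart p g x) : pp p g = x :=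
  H40.isPPart_unique (pp_spec g) h

theorem pp_conj (u g : G) : pp p (u * g * u⁻¹) = u * pp p g * u⁻¹ :=
  pp_eq (H40.isPPart_conj u (pp_spec g))

theorem pp_pgroup (g : G) : IsPGroup p (Subgroup.zpowers (pp p g)) := by
  obtain ⟨y, -, -, ⟨k, hk⟩, -⟩ := pp_spec (p := p) g
  exact IsPGroup.of_card (n := k) (by rw [Nat.card_zpowers, hk])

theorem pp_eq_one_iff {g : G} : pp p g = 1 ↔ ¬ p ∣ orderOf g := by
  refine ⟨fun h => ?_, fun h => pp_eq (H40.isPPart_of_regular h)⟩
  obtain ⟨y, h1, -, -, h4⟩ := pp_spec (p := p) g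
  rw [h, one_mul] at h1
  rwa [h1] at h4

theorem commute_pp (g : G) : Commute (pp p g) g := by
  obtain ⟨k, hk⟩ := H40.exists_pow_eq_of_isPPart (pp_spec (p := p) g)
  rw [← hk]
  exact (Commute.refl g).pow_left k

theorem pp_map {H : Type*} [Group H] [Finite H] (f : G →* H) (g : G) :
    pp p (f g) = f (pp p g) := by
  obtain ⟨y, h1, h2, ⟨k, hk⟩, h4⟩ := pp_spec (p := p) g
  obtain ⟨j, -, hj⟩ := (Nat.dvd_prime_pow Fact.out).1 (hk ▸ orderOf_map_dvd f (pp p g))
  exact pp_eq ⟨f y, by rw [← map_mul, h1], h2.map f, ⟨j, hj⟩,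
    fun h => h4 (h.trans (orderOf_map_dvd f y))⟩

end Basic

variable [Finite G] {p : ℕ}

theorem Setup.exists_conj_pp (D : Setup G p) (g : G) :
    ∃ h : G, h * pp p g * h⁻¹ ∈ (D.P : Subgroup G) := by
  haveI : Fact p.Prime := ⟨D.hp⟩
  obtain ⟨Q, hQ⟩ := (pp_pgroup (p := p) g).exists_le_sylow
  obtain ⟨h, hh⟩ := MulAction.exists_smul_eq G Q D.P
  refine ⟨h, ?_⟩
  rw [← hh, Sylow.coe_subgroup_smul]
  exact Subgroup.smul_mem_pointwise_smul (pp p g) (MulAut.conj h) (Q : Subgroup G)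
    (hQ (Subgroup.mem_zpowers _))

/-- A conjugate in `P` of the `p`-part of `g`; determined up to inversion. -/
noncomputable def Setup.rep (D : Setup G p) (g : G) : (D.P : Subgroup G) :=
  ⟨(D.exists_conj_pp g).choose * pp p g * (D.exists_conj_pp g).choose⁻¹,
    (D.exists_conj_pp g).choose_spec⟩

theorem Setup.rep_of_conj (D : Setup G p) {g h : G} (x : (D.P : Subgroup G))
    (hx : h * pp p g * h⁻¹ = (x : G)) : D.rep g = x ∨ D.rep g = x⁻¹ := by
  set k := (D.exists_conj_pp g).choose with hk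
  have e : (k * h⁻¹) * (x : G) * (k * h⁻¹)⁻¹ = (D.rep g : G) := by
    rw [← hx]
    show _ = k * pp p g * k⁻¹
    group
  have hm : (k * h⁻¹) * (x : G) * (k * h⁻¹)⁻¹ ∈ (D.P : Subgroup G) := e ▸ (D.rep g).2
  rcases D.fus x x.2 (k * h⁻¹) hm with h1 | h1 <;> rw [e] at h1
  · exact Or.inl (Subtype.ext h1)
  · exact Or.inr (Subtype.ext (by simpa using h1))

theorem Setup.rep_eq_one_iff (D : Setup G p) (g : G) : D.rep g = 1 ↔ pp p g = 1 := by
  rw [Subtype.ext_iff, OneMemClass.coe_one]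
  exact conj_eq_one_iff

open scoped Classical in
/-- A function on `P` read on the `p`-parts of the `p`-singular elements, zero elsewhere. -/
noncomputable def Setup.ext (D : Setup G p) (f : ↥(D.P : Subgroup G) → ℂ) (g : G) : ℂ :=
  if pp p g = 1 then 0 else f (D.rep g)

/-- An even function on `P`. -/
def Setup.IsEven (D : Setup G p) (f : ↥(D.P : Subgroup G) → ℂ) : Prop := ∀ x, f x⁻¹ = f x

theorem Setup.ext_isClassFunction (D : Setup G p) {f : ↥(D.P : Subgroup G) → ℂ} (hf : D.IsEven f) :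
    Cfsg.IsClassFunction G (D.ext f) := by
  haveI : Fact p.Prime := ⟨D.hp⟩
  intro g u
  have h1 : pp p (u * g * u⁻¹) = u * pp p g * u⁻¹ := pp_conj u g
  unfold Setup.ext
  by_cases h : pp p g = 1
  · rw [if_pos h, if_pos (by rw [h1, h]; group)]
  · rw [if_neg h, if_neg (fun he => h (conj_eq_one_iff.1 (h1 ▸ he)))]
    set k := (D.exists_conj_pp g).choose
    have hx : (k * u⁻¹) * pp p (u * g * u⁻¹) * (k * u⁻¹)⁻¹ = (D.rep g : G) := by
      rw [h1]
      show _ = k * pp p g * k⁻¹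
      group
    rcases D.rep_of_conj (D.rep g) hx with e | e <;> rw [e]
    exact hf _

/-- `2 - ν - ν⁻¹`. -/
noncomputable def Setup.twoSub (D : Setup G p) (ν : ↥(D.P : Subgroup G) →* ℂˣ)
    (x : (D.P : Subgroup G)) : ℂ :=
  2 - (ν x : ℂ) - (ν x⁻¹ : ℂ)

theorem Setup.twoSub_isEven (D : Setup G p) (ν : ↥(D.P : Subgroup G) →* ℂˣ) :
    D.IsEven (D.twoSub ν) := by
  intro x; unfold Setup.twoSub; rw [inv_inv]; ring

/-- The virtual character `F ν`: `2 - ν - ν⁻¹` on the `p`-singular elements, zero elsewhere. -/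
noncomputable def Setup.F (D : Setup G p) (ν : ↥(D.P : Subgroup G) →* ℂˣ) (g : G) : ℂ :=
  D.ext (D.twoSub ν) g

/-- A central extension of `G` by a group of order `p` whose commutator form on `P` has radical
`R` of index `p ^ 2`. -/
structure Cover (D : Setup G p) where
  R : Subgroup G
  R_le : R ≤ (D.P : Subgroup G)
  R_index : R.relIndex (D.P : Subgroup G) = p ^ 2
  pow_mem : ∀ x ∈ (D.P : Subgroup G), x ^ p ∈ R
  Gh : Type u
  [grp : Group Gh]
  [fin : Finite Gh]
  π : Gh →* G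
  surj : Function.Surjective π
  ker_le : π.ker ≤ Subgroup.center Gh
  ker_card : Nat.card π.ker = p
  comm : ∀ a b : Gh, π a ∈ R → π b ∈ (D.P : Subgroup G) → a * b = b * a
  nondeg : ∀ a : Gh, π a ∈ (D.P : Subgroup G) → π a ∉ R →
    ∃ b : Gh, π b ∈ (D.P : Subgroup G) ∧ a * b ≠ b * a

attribute [instance] Cover.grp Cover.fin

namespace Cover

variable {D : Setup G p}

/-- The `p`-part of `g` is conjugate into `S`. -/
def InSec (p : ℕ) (S : Subgroup G) (g : G) : Prop := ∃ h : G, h * pp p g * h⁻¹ ∈ S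

open scoped Classical in
/-- The component in the kernel of a lift `v`, relative to the lifts inverted modulo nothing:
`z` with `z * z = k v k⁻¹ v` for `k` inverting the image of `v`. -/
noncomputable def zeta (C : Cover D) (v : C.Gh) : C.π.ker :=
  if h : ∃ z : C.π.ker, ∃ k : C.Gh, C.π (k * v * k⁻¹ * v) = 1 ∧
      (z : C.Gh) * (z : C.Gh) = k * v * k⁻¹ * v then h.choose else 1

open scoped Classical in
/-- The twisted class function attached to `φ`. -/
noncomputable def psi (C : Cover D) (ω : C.π.ker →* ℂˣ) (φ : G → ℂ) (g : C.Gh) : ℂ :=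
  if InSec p C.R (C.π g) then (ω (C.zeta (pp p g)) : ℂ) * φ (C.π g) else 0

end Cover

end Cfsg.Agent.H39.SmithTyrer
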