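import Cfsg.Agent.H39.SmithTyrer.PairSums
import Cfsg.Agent.H58.SmithTyrer.Zeta

/-!
# The endgame: two evaluations of the sum over products of two involutions
-/

set_option autoImplicit false

namespace Cfsg.Agent.H39.SmithTyrer

open scoped ComplexConjugate

universe u

variable {G : Type u} [Group G] [Fintype G] {p : ℕ}

/-- Solving the final equation. -/
theorem eq_or_eq_two {A : ℕ} {a b : ℂ} (hA : A ≠ 0) (hp : 2 * A + 1 = p) (hb : b ≠ 0)
    (hb1 : b - 1 ≠ 0) (hAb : (A : ℂ) * b + 1 ≠ 0)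
    (h : (A : ℂ) * (a ^ 2 / b) + 1 - (A : ℂ) / p * (1 + (a - 1) ^ 2 / (b - 1) - a ^ 2 / b) =
      ((A : ℂ) * a + 1) ^ 2 / ((A : ℂ) * b + 1)) : a = b ∨ b = 2 := by
  have hpC : (p : ℂ) = 2 * A + 1 := by rw [← hp]; push_cast; ring
  have hp0 : (p : ℂ) ≠ 0 := by rw [← hp]; exact Nat.cast_ne_zero.2 (by omega)
  have hA0 : (A : ℂ) ≠ 0 := Nat.cast_ne_zero.2 hA
  have hA1 : (A : ℂ) + 1 ≠ 0 := by exact_mod_cast Nat.succ_ne_zero A
  have hX : (A : ℂ) * (a ^ 2 / b) + 1 - ((A : ℂ) * a + 1) ^ 2 / ((A : ℂ) * b + 1) =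
      (A : ℂ) * (a - b) ^ 2 / (b * ((A : ℂ) * b + 1)) := by
    field_simp
    ring
  have hY : 1 + (a - 1) ^ 2 / (b - 1) - a ^ 2 / b = (a - b) ^ 2 / (b * (b - 1)) := by
    field_simp
    ring
  have h' : (A : ℂ) * (a - b) ^ 2 / (b * ((A : ℂ) * b + 1)) -
      (A : ℂ) / p * ((a - b) ^ 2 / (b * (b - 1))) = 0 := by
    rw [← hX, ← hY]
    linear_combination h
  field_simp at h'
  have h2 : (a - b) ^ 2 * (((A : ℂ) + 1) * (b - 2)) = 0 := by
    rw [hpC] at h'
    apply mul_left_cancel₀ hA0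
    linear_combination h'
  rcases mul_eq_zero.1 h2 with h3 | h3
  · exact Or.inl (sub_eq_zero.1 (pow_eq_zero_iff two_ne_zero |>.1 h3))
  · exact Or.inr (sub_eq_zero.1 ((mul_eq_zero.1 h3).resolve_left hA1))

open scoped Classical in
/-- The coherent characters and the twisted character contradict each other. -/
theorem false_of_data (D : Setup G p) (C : Cover D)
    (Y : Cfsg.IrrCharacter G) (δ : ℂ) (hδ : δ * δ = 1) (hY : Y ≠ H26.oneIrr G)
    (hYs : ∀ g, pp p g ≠ 1 → Y.1 g = δ)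
    (hXν : ∀ ν : ↥(D.P : Subgroup G) →* ℂˣ, ν ≠ 1 → ∃ (X : Cfsg.IrrCharacter G) (e : ℂ),
      e * e = 1 ∧ X ≠ H26.oneIrr G ∧ ∀ g, D.F ν g = 1 + δ * Y.1 g - e * X.1 g)
    (s : Finset (↥(D.P : Subgroup G) →* ℂˣ)) (hcard : s.card = p ^ 2 - 1)
    (hs : ∀ ν ∈ s, ν ≠ 1 ∧ ∀ x : ↥(D.P : Subgroup G), (x : G) ∈ C.R → ν x = 1)
    (hsum : ∀ g : G, 2 * (p : ℂ) ^ 2 * (if Cover.InSec p C.R g then 0 else 1) =
      ∑ ν ∈ s, D.F ν g)
    (hgood : ∀ [Fintype C.Gh] (ω : C.π.ker →* ℂˣ), Function.Injective ω →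
      ∀ (X : Cfsg.IrrCharacter G), X ≠ H26.oneIrr G → ∀ (e : ℂ), e * e = 1 →
      ∀ (μ : ↥(D.P : Subgroup G) →* ℂˣ), μ ≠ 1 →
      (∀ x : ↥(D.P : Subgroup G), (x : G) ∈ C.R → μ x = 1) →
      (∀ g, pp p g ≠ 1 → e * X.1 g = (μ (D.rep g) : ℂ) + (μ (D.rep g)⁻¹ : ℂ)) →
      ∀ (A : ℕ), 2 * A + 1 = p →
        Cfsg.IsGeneralizedCharacter C.Gh (C.psi ω (fun g => (A : ℂ) * (e * X.1 g) + 1)) ∧
        Cfsg.classInner (C.psi ω (fun g => (A : ℂ) * (e * X.1 g) + 1))
          (C.psi ω (fun g => (A : ℂ) * (e * X.1 g) + 1)) = 1) : False := by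
  haveI : Fact p.Prime := ⟨D.hp⟩
  letI : Fintype C.Gh := Fintype.ofFinite _
  obtain ⟨u₀, hu, hu1⟩ := D.exists_involution
  obtain ⟨v, hv, hvv⟩ := C.exists_lift_invol hu
  subst hv
  set u := C.π v with hu'
  set A := p / 2 with hAdef
  have hp3 : 3 ≤ p := by have := D.hp.two_le; have := D.odd; omega
  have hA : 2 * A + 1 = p := by
    obtain ⟨k, hk⟩ := D.hp.odd_of_ne_two D.odd
    omega
  have hA0 : A ≠ 0 := by omega
  -- the values at the regular elements `1` and `u`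
  have hreg : ∀ (ν : ↥(D.P : Subgroup G) →* ℂˣ) (g : G), pp p g = 1 → D.F ν g = 0 := by
    intro ν g hg; rw [Setup.F, Setup.ext, if_pos hg]
  have hppu : pp p u = 1 := pp_of_sq D.odd hu
  have hpp1 : pp p (1 : G) = 1 := pp_of_sq D.odd (one_mul 1)
  set a := 1 + δ * Y.1 u with ha
  set b := 1 + δ * Y.1 1 with hb
  set C0 := classCard u ^ 2 * (1 + (a - 1) ^ 2 / (b - 1) - a ^ 2 / b) with hC0
  have hδ0 : δ ≠ 0 := fun h => by rw [h, zero_mul] at hδ; exact zero_ne_one hδ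
  have hy0 : Y.1 1 ≠ 0 := H26.irr_one_ne_zero Y
  have hb1 : b - 1 ≠ 0 := by rw [hb, add_sub_cancel_left]; exact mul_ne_zero hδ0 hy0
  have hval : ∀ ν : ↥(D.P : Subgroup G) →* ℂˣ, ν ≠ 1 → ∃ (X : Cfsg.IrrCharacter G) (e : ℂ),
      e * e = 1 ∧ X ≠ H26.oneIrr G ∧ (∀ g, D.F ν g = 1 + δ * Y.1 g - e * X.1 g) ∧
      e * X.1 1 = b ∧ e * X.1 u = a ∧ pairSum u (D.F ν) = C0 := by
    intro ν hν
    obtain ⟨X, e, he, hX, hF⟩ := hXν ν hν
    have h1 : e * X.1 1 = b := by linear_combination hF 1 - hreg ν 1 hpp1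
    have h2 : e * X.1 u = a := by linear_combination hF u - hreg ν u hppu
    refine ⟨X, e, he, hX, hF, h1, h2, ?_⟩
    have hfun : D.F ν = (fun _ => (1 : ℂ)) + δ • Y.1 - e • X.1 := funext fun g => by
      simp only [Pi.sub_apply, Pi.add_apply, Pi.smul_apply, smul_eq_mul, hF g]
    have he0 : e ≠ 0 := fun h => by rw [h, zero_mul] at he; exact zero_ne_one he
    have hx0 : X.1 1 ≠ 0 := H26.irr_one_ne_zero X
    rw [hfun, pairSum_sub, pairSum_add, pairSum_smul, pairSum_smul, pairSum_one, pairSum_irr,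
      pairSum_irr, hC0]
    have hq1 : δ * (Y.1 u ^ 2 / Y.1 1) = (a - 1) ^ 2 / (b - 1) := by
      rw [ha, hb, add_sub_cancel_left, add_sub_cancel_left, mul_pow, ← mul_div_assoc,
        div_eq_div_iff hy0 (mul_ne_zero hδ0 hy0)]
      ring
    have hq2 : e * (X.1 u ^ 2 / X.1 1) = a ^ 2 / b := by
      rw [← h1, ← h2, mul_pow, ← mul_div_assoc, div_eq_div_iff hx0 (mul_ne_zero he0 hx0)]
      ring
    linear_combination classCard u ^ 2 * hq1 - classCard u ^ 2 * hq2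
  -- a nontrivial `μ` trivial on `R`, and a faithful character of the kernel
  have hp2 : 9 ≤ p ^ 2 := by nlinarith
  obtain ⟨μ, hμs⟩ : s.Nonempty := Finset.card_pos.1 (by omega)
  obtain ⟨hμ, hμR⟩ := hs μ hμs
  obtain ⟨X, e, he, hX1, hF, hXb, hXa, hC0μ⟩ := hval μ hμ
  have hb0 : b ≠ 0 := by
    rw [← hXb]
    exact mul_ne_zero (fun h => by rw [h, zero_mul] at he; exact zero_ne_one he)
      (H26.irr_one_ne_zero X)
  have hXs : ∀ g, pp p g ≠ 1 → e * X.1 g = (μ (D.rep g) : ℂ) + (μ (D.rep g)⁻¹ : ℂ) := by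
    intro g hg
    have h := hF g
    rw [Setup.F, Setup.ext, if_neg hg, Setup.twoSub, hYs g hg, hδ] at h
    linear_combination h
  haveI hcyc : IsCyclic C.π.ker := isCyclic_of_prime_card C.ker_card
  letI : CommGroup C.π.ker := IsCyclic.commGroup
  haveI : Nontrivial C.π.ker :=
    Finite.one_lt_card_iff_nontrivial.1 (by rw [C.ker_card]; exact D.hp.one_lt)
  obtain ⟨ω, hω⟩ := exists_hom_ne_one (A := C.π.ker)
  have hωinj : Function.Injective ω := by
    haveI : Fact (Nat.card C.π.ker).Prime := ⟨by rw [C.ker_card]; exact D.hp⟩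
    rw [← MonoidHom.ker_eq_bot_iff]
    refine ((Subgroup.eq_bot_or_eq_top_of_prime_card ω.ker).resolve_right fun h => hω ?_)
    exact MonoidHom.ext fun z => (MonoidHom.mem_ker.1 (h ▸ Subgroup.mem_top z))
  obtain ⟨hgen, hnorm⟩ := hgood ω hωinj X hX1 e he μ hμ hμR hXs A hA
  set φ : G → ℂ := fun g => (A : ℂ) * (e * X.1 g) + 1 with hφ
  set w : G → ℂ := fun g => if Cover.InSec p C.R g then 0 else 1 with hw
  set f : G → ℂ := fun g => if Cover.InSec p C.R g then φ g else 0 with hf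
  have hpsi : ∀ x y : C.Gh, x * x = 1 → y * y = 1 → C.psi ω φ (x * y) = f (C.π (x * y)) := by
    intro x y hx hy
    simp only [Cover.psi, hf]
    split_ifs with h
    · have hinv : x * (x * y) * x⁻¹ = (x * y)⁻¹ := by
        rw [mul_inv_rev, inv_eq_of_mul_eq_one_right hx, inv_eq_of_mul_eq_one_right hy,
          ← mul_assoc x x y, hx, one_mul]
      have hz := H58.SmithTyrer.zeta_of_inverted C (v := pp p (x * y)) (k := x)
        (by simpa only [Cover.InSec, pp_map] using h)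
        (by rw [← pp_conj, hinv, pp_inv])
      rw [hz, map_one, Units.val_one, one_mul]
    · rfl
  have hin : ∀ g, pp p g = 1 → Cover.InSec p C.R g := fun g hg =>
    ⟨1, by rw [hg]; simp [C.R.one_mem]⟩
  have hpsiv : ∀ x : C.Gh, x * x = 1 → C.psi ω φ x = φ (C.π x) := by
    intro x hx
    have h := hpsi x 1 hx (one_mul 1)
    rw [mul_one] at h
    rw [h, hf]
    exact if_pos (hin _ (pp_of_sq D.odd (by rw [← map_mul, hx, map_one])))
  -- the evaluation upstairs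
  have hup : pairSum u f = classCard u ^ 2 * (((A : ℂ) * a + 1) ^ 2 / ((A : ℂ) * b + 1)) := by
    obtain ⟨e1, e2⟩ := C.pairSum_lift hvv (C.psi ω φ) f hpsi
    rw [hu', ← e1, pairSum_gen v hgen hnorm, e2, hpsiv v hvv, hpsiv 1 (one_mul 1), map_one]
    simp only [hφ]
    rw [hXb, ← hXa]
  have hAb : (A : ℂ) * b + 1 ≠ 0 := by
    have := H57.gen_norm_one_degree_ne_zero hgen hnorm
    rw [hpsiv 1 (one_mul 1), map_one] at this
    simp only [hφ, hXb] at this
    exact this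
  -- the evaluation downstairs
  have hsplit : f = ((A : ℂ) • (e • X.1) + fun _ => (1 : ℂ)) -
      ((2 * (A : ℂ) + 1) • w - (A : ℂ) • D.F μ) := by
    funext g
    simp only [Pi.sub_apply, Pi.add_apply, Pi.smul_apply, smul_eq_mul, hf, hw, hφ]
    by_cases h : Cover.InSec p C.R g
    · have hz : D.F μ g = 0 := by
        by_cases hg : pp p g = 1
        · exact hreg μ g hg
        · have hr : (D.rep g : G) ∈ C.R := (D.inSec_iff C.R_le g).1 h
          rw [Setup.F, Setup.ext, if_neg hg, Setup.twoSub, map_inv, hμR _ hr, inv_one,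
            Units.val_one]
          ring
      rw [if_pos h, if_pos h, hz]
      ring
    · have hg : pp p g ≠ 1 := fun hg => h (hin g hg)
      rw [if_neg h, if_neg h, Setup.F, Setup.ext, if_neg hg, Setup.twoSub, hXs g hg]
      ring
  have hwsum : 2 * (p : ℂ) ^ 2 * pairSum u w = ((p : ℂ) ^ 2 - 1) * C0 := by
    have e1 : (2 * (p : ℂ) ^ 2) • w = ∑ ν ∈ s, D.F ν := funext fun g => by
      rw [Pi.smul_apply, smul_eq_mul, Finset.sum_apply]
      exact hsum g
    have e2 : ∀ ν ∈ s, pairSum u (D.F ν) = C0 := fun ν hν => by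
      obtain ⟨_, _, _, _, _, _, _, h⟩ := hval ν (hs ν hν).1
      exact h
    rw [← pairSum_smul, e1, pairSum_sum, Finset.sum_congr rfl e2, Finset.sum_const,
      hcard, nsmul_eq_mul, Nat.cast_sub (by omega : 1 ≤ p ^ 2)]
    push_cast
    ring
  have hdown : pairSum u f = classCard u ^ 2 * ((A : ℂ) * (a ^ 2 / b) + 1) - (A : ℂ) / p * C0 := by
    have he0 : e ≠ 0 := fun h => by rw [h, zero_mul] at he; exact zero_ne_one he
    have hx0 : X.1 1 ≠ 0 := H26.irr_one_ne_zero X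
    have hq2 : e * (X.1 u ^ 2 / X.1 1) = a ^ 2 / b := by
      rw [← hXb, ← hXa, mul_pow, ← mul_div_assoc, div_eq_div_iff hx0 (mul_ne_zero he0 hx0)]
      ring
    have hp0 : (p : ℂ) ≠ 0 := Nat.cast_ne_zero.2 D.hp.ne_zero
    have hpC : (p : ℂ) = 2 * A + 1 := by rw [← hA]; push_cast; ring
    rw [hsplit, pairSum_sub, pairSum_add, pairSum_sub, pairSum_smul, pairSum_smul, pairSum_smul,
      pairSum_smul, pairSum_irr, pairSum_one, hC0μ]
    have hW : pairSum u w = ((p : ℂ) ^ 2 - 1) * C0 / (2 * (p : ℂ) ^ 2) := by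
      rw [eq_div_iff (mul_ne_zero two_ne_zero (pow_ne_zero 2 hp0))]
      linear_combination hwsum
    rw [hW, ← hpC]
    have hq3 : (p : ℂ) * (((p : ℂ) ^ 2 - 1) * C0 / (2 * (p : ℂ) ^ 2)) - (A : ℂ) * C0 =
        (A : ℂ) / p * C0 := by
      field_simp
      rw [hpC]
      ring
    linear_combination (A : ℂ) * classCard u ^ 2 * hq2 - hq3
  have hk : classCard u ^ 2 ≠ 0 := pow_ne_zero 2 (classCard_ne_zero u)
  have hfin : (A : ℂ) * (a ^ 2 / b) + 1 - (A : ℂ) / p * (1 + (a - 1) ^ 2 / (b - 1) - a ^ 2 / b) =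
      ((A : ℂ) * a + 1) ^ 2 / ((A : ℂ) * b + 1) := by
    apply mul_left_cancel₀ hk
    rw [← hup, hdown, hC0]
    ring
  rcases eq_or_eq_two hA0 hA hb0 hb1 hAb hfin with h | h
  · refine apply_ne_degree D.simple X hX1 hu1 (mul_left_cancel₀ (a := e) ?_ ?_)
    · exact fun h0 => by rw [h0, zero_mul] at he; exact zero_ne_one he
    · rw [hXa, hXb, h]
  · have hy : δ * Y.1 1 = 1 := by linear_combination h
    have hy' : Y.1 1 = δ := by linear_combination (-Y.1 1) * hδ + δ * hy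
    refine degree_ne_one D.simple D.nonab Y hY ?_
    obtain ⟨n, hn, hn'⟩ := H57.irr_degree Y.2
    rcases mul_self_eq_one_iff.1 hδ with hd | hd
    · rw [hy', hd]
    · exfalso
      rw [hn', hd] at hy'
      have : (n : ℤ) = -1 := by exact_mod_cast hy'
      omega

end Cfsg.Agent.H39.SmithTyrer
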