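import Cfsg.Agent.H39.SmithTyrer.Endgame
import Cfsg.Agent.H40.SmithTyrer.Reduction
import Cfsg.Agent.H50.SmithTyrer.Cover
import Cfsg.Agent.H63.SmithTyrer.PsiGen
import Cfsg.Agent.H21.SmithTyrer.Decomp
import Cfsg.Agent.H21.SmithTyrer.Fourier
import Cfsg.Agent.H58.SmithTyrer.Dual
import Cfsg.Agent.H63.SmithTyrer.PsiNorm
import Cfsg.Agent.H39.SmithTyrer.BlockPart

/-!
# No simple group has an abelian noncyclic Sylow subgroup of inertial index two
-/

set_option autoImplicit false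

namespace Cfsg.Agent.H39.SmithTyrer

universe u

theorem no_setup (G : Type u) [Group G] [Finite G] (p : ℕ) (D : Setup G p) : False := by
  haveI : Fact p.Prime := ⟨D.hp⟩
  letI : Fintype G := Fintype.ofFinite G
  obtain ⟨C⟩ := H50.SmithTyrer.exists_cover D
  obtain ⟨Y, δ, hδ, hY, hν⟩ := H21.SmithTyrer.exists_decomp D
  have hYs := H21.SmithTyrer.const_on_singular D Y δ hδ hY hν
    (Y_sections D Y δ hδ hY hν)
  obtain ⟨s, hcard, hs, hsum⟩ := H58.SmithTyrer.exists_dual_family C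
  refine false_of_data D C Y δ hδ hY hYs
    (fun ν h => let ⟨X, e, h1, h2, _, h4⟩ := hν ν h; ⟨X, e, h1, h2, h4⟩) s hcard hs
    (fun g => by convert hsum g) ?_
  intro _ ω hω X hX e he μ hμ hμR hXs A hA
  exact ⟨H63.SmithTyrer.psi_isGen C ω hω X e he μ hμR hXs A hA,
    H63.SmithTyrer.psi_norm C ω X hX e he μ hμ hμR hXs A hA⟩

end Cfsg.Agent.H39.SmithTyrer
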