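import Cfsg.Agent.H39.SmithTyrer.Tools

/-!
# Sums over pairs of involutions, upstairs and downstairs
-/

set_option autoImplicit false

namespace Cfsg.Agent.H39.SmithTyrer

open scoped ComplexConjugate

universe u

variable {G : Type u} [Group G]

open scoped Classical in
/-- The sum of `f` over the products of two conjugates of `u`. -/
noncomputable def pairSum [Fintype G] (u : G) (f : G → ℂ) : ℂ :=
  ∑ x ∈ Finset.univ.filter (IsConj u), ∑ y ∈ Finset.univ.filter (IsConj u), f (x * y)

open scoped Classical in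
/-- The number of conjugates of `u`. -/
noncomputable def classCard [Fintype G] (u : G) : ℂ :=
  ((Finset.univ.filter (IsConj u)).card : ℂ)

section Sums

variable [Fintype G] (u : G)

theorem classCard_ne_zero : classCard u ≠ 0 := by
  classical
  unfold classCard
  exact Nat.cast_ne_zero.2 (Finset.card_ne_zero.2 ⟨u, Finset.mem_filter.2 ⟨Finset.mem_univ _, IsConj.refl u⟩⟩)

theorem pairSum_irr (χ : Cfsg.IrrCharacter G) :
    pairSum u χ.1 = classCard u ^ 2 * (χ.1 u ^ 2 / χ.1 1) := by
  classical
  unfold pairSum classCard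
  rw [H38.sum_class_pair_char χ u u]
  ring

theorem pairSum_add (f g : G → ℂ) : pairSum u (f + g) = pairSum u f + pairSum u g := by
  simp only [pairSum, Pi.add_apply, Finset.sum_add_distrib]

theorem pairSum_sub (f g : G → ℂ) : pairSum u (f - g) = pairSum u f - pairSum u g := by
  simp only [pairSum, Pi.sub_apply, Finset.sum_sub_distrib]

theorem pairSum_smul (c : ℂ) (f : G → ℂ) : pairSum u (c • f) = c * pairSum u f := by
  simp only [pairSum, Pi.smul_apply, smul_eq_mul, Finset.mul_sum]

theorem pairSum_sum {ι : Type*} (s : Finset ι) (f : ι → G → ℂ) :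
    pairSum u (∑ i ∈ s, f i) = ∑ i ∈ s, pairSum u (f i) := by
  classical
  induction s using Finset.induction_on with
  | empty => simp [pairSum]
  | insert a s ha ih => rw [Finset.sum_insert ha, Finset.sum_insert ha, pairSum_add, ih]

theorem pairSum_one : pairSum u (fun _ => (1 : ℂ)) = classCard u ^ 2 := by
  simp only [pairSum, classCard, Finset.sum_const, nsmul_eq_mul, mul_one]
  ring

/-- A norm one generalised character behaves like an irreducible character. -/
theorem pairSum_gen {θ : G → ℂ} (h : Cfsg.IsGeneralizedCharacter G θ)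
    (h1 : Cfsg.classInner θ θ = 1) :
    pairSum u θ = classCard u ^ 2 * (θ u ^ 2 / θ 1) := by
  rcases H57.gen_norm_one h h1 with h' | h'
  · exact pairSum_irr u ⟨θ, h'⟩
  · have e : pairSum u (-θ) = classCard u ^ 2 * ((-θ) u ^ 2 / (-θ) 1) := pairSum_irr u ⟨-θ, h'⟩
    rw [← neg_one_smul ℂ θ, pairSum_smul] at e
    simp only [neg_smul, one_smul, Pi.neg_apply, neg_sq, div_neg] at e
    linear_combination (-1 : ℂ) * e

end Sums

variable [Fintype G] {p : ℕ} {D : Setup G p}

namespace Cover

variable (C : Cover D)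

theorem ker_pow_eq_one {z : C.Gh} (hz : C.π z = 1) : z ^ p = 1 := by
  have h : (⟨z, MonoidHom.mem_ker.2 hz⟩ : C.π.ker) ^ Nat.card C.π.ker = 1 := pow_card_eq_one'
  rw [C.ker_card] at h
  exact congrArg Subtype.val h

/-- An involution has a lift of order two. -/
theorem exists_lift_invol {u : G} (hu : u * u = 1) :
    ∃ v : C.Gh, C.π v = u ∧ v * v = 1 := by
  obtain ⟨w, hw⟩ := C.surj u
  have hodd : Odd p := D.hp.odd_of_ne_two D.odd
  refine ⟨w ^ p, ?_, ?_⟩
  · obtain ⟨k, hk⟩ := hodd
    rw [map_pow, hw, hk, pow_succ, pow_mul, pow_two, hu, one_pow, one_mul]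
  · rw [← pow_add, ← two_mul, pow_mul, C.ker_pow_eq_one (by rw [map_pow, hw, pow_two, hu])]

/-- Involution lifts are unique. -/
theorem lift_invol_unique {v v' : C.Gh} (h : C.π v = C.π v') (hv : v * v = 1) (hv' : v' * v' = 1) :
    v = v' := by
  have hz : C.π (v⁻¹ * v') = 1 := by rw [map_mul, map_inv, h, inv_mul_cancel]
  set z := v⁻¹ * v' with hzdef
  have hcen := Subgroup.mem_center_iff.1 (C.ker_le (MonoidHom.mem_ker.2 hz))
  have hv'z : v' = v * z := by rw [hzdef, mul_inv_cancel_left]
  have hsq : z * z = 1 := by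
    have e : v * z * (v * z) = (v * v) * (z * z) := by
      rw [mul_assoc v z, ← mul_assoc z v z, ← hcen v]; group
    rw [← hv'z, hv', hv, one_mul] at e
    exact e.symm
  obtain ⟨k, hk⟩ := D.hp.odd_of_ne_two D.odd
  have hp1 : z = 1 := calc
    z = z ^ (2 * k + 1) := by rw [pow_succ, pow_mul, pow_two, hsq, one_pow, one_mul]
    _ = z ^ p := congrArg (z ^ ·) hk.symm
    _ = 1 := C.ker_pow_eq_one hz
  rw [hv'z, hp1, mul_one]

/-- Summing a class-constant function over pairs of conjugates of the lifted involution. -/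
theorem pairSum_lift [Fintype C.Gh] {v : C.Gh} (hv : v * v = 1) (F : C.Gh → ℂ) (f : G → ℂ)
    (hF : ∀ x y : C.Gh, x * x = 1 → y * y = 1 → F (x * y) = f (C.π (x * y))) :
    pairSum v F = pairSum (C.π v) f ∧ classCard v = classCard (C.π v) := by
  classical
  have hsq : ∀ x, IsConj v x → x * x = 1 := by
    intro x hx
    obtain ⟨c, rfl⟩ := isConj_iff.1 hx
    rw [show c * v * c⁻¹ * (c * v * c⁻¹) = c * (v * v) * c⁻¹ by group, hv, mul_one, mul_inv_cancel]
  have himg : (Finset.univ.filter (IsConj v)).image C.π = Finset.univ.filter (IsConj (C.π v)) := by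
    ext y
    simp only [Finset.mem_image, Finset.mem_filter, Finset.mem_univ, true_and]
    constructor
    · rintro ⟨x, hx, rfl⟩
      exact MonoidHom.map_isConj C.π hx
    · intro hy
      obtain ⟨c, rfl⟩ := isConj_iff.1 hy
      obtain ⟨c', rfl⟩ := C.surj c
      exact ⟨c' * v * c'⁻¹, isConj_iff.2 ⟨c', rfl⟩, by simp⟩
  have hinj : Set.InjOn C.π ↑(Finset.univ.filter (IsConj v)) := by
    intro x hx y hy e
    simp only [Finset.coe_filter, Finset.mem_univ, true_and, Set.mem_setOf_eq] at hx hy
    exact C.lift_invol_unique e (hsq x hx) (hsq y hy)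
  refine ⟨?_, ?_⟩
  · unfold pairSum
    rw [← himg, Finset.sum_image hinj]
    refine Finset.sum_congr rfl fun x hx => ?_
    rw [Finset.sum_image hinj]
    refine Finset.sum_congr rfl fun y hy => ?_
    simp only [Finset.mem_filter, Finset.mem_univ, true_and] at hx hy
    rw [hF x y (hsq x hx) (hsq y hy), map_mul]
  · unfold classCard
    rw [← himg, Finset.card_image_of_injOn hinj]

end Cover

end Cfsg.Agent.H39.SmithTyrer
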